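import Mathlib
import Cfsg.Agent.Lib.Cover.PSolvHt
import Cfsg.Agent.Lib.Cover.Swan
import Cfsg.Agent.Lib.Blk.BF
import Cfsg.Agent.Lib.Tame.Grp

/-!
# Blocks of `p`-solvable groups: reduction to maximal defect
-/

set_option autoImplicit false

namespace CfsgLib.Tame

open Cfsg CfsgLib.Char CfsgLib.Block CfsgLib.Blk

universe u

/-- If induction is a bijection from the block `b` of `H` onto `B`, the two have the same rank. -/
theorem blockRank_eq_of_ind {p : ℕ} {M : Ideal AlgInt} (hM : IsPModular p M) {G : Type*} [Group G]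
    [Fintype G] (H : Subgroup G) [Fintype H] {b : Set (IrrCharacter H)} (hb : IsPBlock M b)
    {B : Set (IrrCharacter G)}
    (h0 : ∀ χ : IrrCharacter G, χ ∈ B ↔ ∃ ψ ∈ b, (χ : G → ℂ) = indFun H (ψ : H → ℂ))
    (h1 : ∀ ψ ∈ b, IsIrrCharacter G (indFun H (ψ : H → ℂ)))
    (h2 : ∀ ψ ∈ b, ∀ ψ' ∈ b, indFun H (ψ : H → ℂ) = indFun H (ψ' : H → ℂ) → ψ = ψ') :
    blockRank p b = blockRank p B := by
  classical
  have hmap : (regSpan p b).map (Char.indLin H) = regSpan p B := by
    rw [regSpan, regSpan, Submodule.map_span]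
    congr 1
    ext f
    constructor
    · rintro ⟨_, ⟨ψ, hψ, rfl⟩, rfl⟩
      exact ⟨⟨_, h1 ψ hψ⟩, (h0 _).2 ⟨ψ, hψ, rfl⟩, Cover.reg_indFun H _⟩
    · rintro ⟨χ, hχ, rfl⟩
      obtain ⟨ψ, hψ, he⟩ := (h0 χ).1 hχ
      refine ⟨_, ⟨ψ, hψ, rfl⟩, ?_⟩
      change indFun H _ = pRegularPart p (χ : G → ℂ)
      rw [he, Cover.reg_indFun]
  have hinj : Disjoint (regSpan p b) (LinearMap.ker (Char.indLin H)) := by
    rw [Submodule.disjoint_def]
    intro f hf hk
    have hf' := blockPart_of_mem_regSpan hM hb hf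
    rw [LinearMap.mem_ker] at hk
    have h3 : ∀ ψ ∈ bf b, classInner f (ψ : H → ℂ) = 0 := by
      intro ψ hψ
      have h4 := congrArg (fun g => classInner g (indFun H (ψ : H → ℂ))) hk
      rw [← hf', blockPart_bf, map_sum] at h4
      simp only [map_smul, classInner_sum_left, classInner_smul_left] at h4
      rw [Finset.sum_eq_single ψ] at h4
      · change _ * classInner (indFun H _) _ = _ at h4
        rw [classInner_irr_self (h1 ψ (mem_bf.1 hψ)), mul_one] at h4
        rw [h4]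
        simp [classInner_def]
      · intro η hη hne
        change _ * classInner (indFun H _) _ = _
        rw [classInner_irr_of_ne (h1 η (mem_bf.1 hη)) (h1 ψ (mem_bf.1 hψ))
          fun he => hne (h2 η (mem_bf.1 hη) ψ (mem_bf.1 hψ) he), mul_zero]
      · exact fun h => absurd hψ h
    rw [← hf', blockPart_bf]
    exact Finset.sum_eq_zero fun ψ hψ => by rw [h3 ψ hψ, zero_smul]
  rw [blockRank_eq, blockRank_eq, ← hmap, ← LinearMap.range_domRestrict]
  exact (LinearMap.finrank_range_of_inj (LinearMap.injective_domRestrict_iff.2 hinj)).symm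

/-- Fong–Reynolds reduction to a block whose defect group is a Sylow subgroup. -/
theorem exists_sylow_red {p : ℕ} [Fact p.Prime] {M : Ideal AlgInt} (hM : IsPModular p M)
    {G : Type u} [Group G] [Finite G] (hG : IsPSolvable p G) {B : Set (IrrCharacter G)}
    (hB : IsPBlock M B) {D : Subgroup G} (hD : IsDefectGroup p M B D) :
    ∃ (H : Type u) (_ : Group H) (_ : Finite H) (ι : H →* G) (b : Set (IrrCharacter H))
      (P : Sylow p H), Function.Injective ι ∧ IsPBlock M b ∧ IsDefectGroup p M b P ∧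
      Nonempty ((P : Subgroup H) ≃* D) ∧ blockRank p b = blockRank p B := by
  induction hn : Nat.card G using Nat.strong_induction_on generalizing G with
  | _ n ih =>
  have := Fintype.ofFinite G
  set N := pPrimeCore p G with hN
  have := Fintype.ofFinite N
  obtain ⟨χ, hχ⟩ := IsPBlock_nonempty hM hB
  obtain ⟨θ, hθ⟩ := Cover.exists_under N χ
  have hNp : (Nat.card N).Coprime p := PLocal.PSolv.coprime_card_pPrimeCore
  by_cases hT : inertia N (θ : N → ℂ) = ⊤
  · obtain ⟨-, h2⟩ := Cover.eq_overSet_of_isPSolvable hM hG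
      (Cover.conjIrr_eq_of_inertia_eq_top N hT) hB hχ hθ
    obtain ⟨S, rfl⟩ := ((h2 D).1 hD).exists_sylow
    exact ⟨G, inferInstance, inferInstance, MonoidHom.id G, B, S, Function.injective_id, hB, hD,
      ⟨MulEquiv.refl _⟩, rfl⟩
  · set T := inertia N (θ : N → ℂ) with hTdef
    have := Fintype.ofFinite T
    have hb := Cover.isPBlock_singleton_of_coprime hM hNp θ
    have hT' := Cover.mem_inertia_iff_forall N θ
    have hNT : N ≤ T := le_inertia N (irr_isClassFunction θ)
    obtain ⟨B', hcov, hind⟩ := Cover.fongReynolds_surj N hM hb hT' hNT hB ⟨χ, hχ, θ, rfl, hθ⟩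
    obtain ⟨h1, -⟩ := Cover.fongReynolds_defect_height N hM hb hT' hNT hcov hind
    have hB' : IsPBlock M B' := hind.1
    obtain ⟨D', hD'⟩ := exists_isDefectGroup hM hB'
    have h0 : ∀ ψ ∈ B', ∃ θ' ∈ ({θ} : Set (IrrCharacter N)),
        classInner (fun n : N => (ψ : T → ℂ) ⟨n, hNT n.2⟩) (θ' : N → ℂ) ≠ 0 := fun ψ hψ =>
      Cover.exists_under_of_covers_hom hM (Subgroup.inclusion_injective hNT)
        (Cover.range_inclusion_normal hNT (le_top.trans (top_le_Nz N))) hB' hb hcov hψ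
    have hr : blockRank p B' = blockRank p B :=
      blockRank_eq_of_ind hM T hB' (Cover.fongReynolds_mem_iff N hM hb hT' hNT hcov hind)
        (Cover.fongReynolds N hM hb hT' hNT hB' hcov).1 fun ψ hψ ψ' hψ' he => by
          obtain ⟨θ₁, hθ₁, h⟩ := h0 ψ hψ
          obtain ⟨θ₂, hθ₂, h'⟩ := h0 ψ' hψ'
          exact Subtype.ext
            (Cover.eq_of_indFun_eq_of_over N hM hb hT' hNT hθ₁ hθ₂ ψ.2 ψ'.2 h h' he)
    obtain ⟨g, -, hg⟩ := ((BrPair.isDefectGroup_iff hM hB).1 hD).exists_conj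
      ((BrPair.isDefectGroup_iff hM hB).1 (h1 D' hD'))
    obtain ⟨H, _, _, ι, b, P, hι, hb', hP, ⟨e⟩, hr'⟩ :=
      ih _ (hn ▸ Cover.card_lt_of_ne_top hT) (PLocal.PSolv.subgroup hG T) hB' hD' rfl
    exact ⟨H, inferInstance, inferInstance, T.subtype.comp ι, b, P,
      T.subtype_injective.comp hι, hb', hP,
      ⟨(e.trans (D'.equivMapOfInjective T.subtype T.subtype_injective)).trans
        (BrPair.cjEquiv g hg.symm).symm⟩, hr'.trans hr⟩

/-- In a solvable group with a dihedral, semidihedral or quaternion Sylow 2-subgroup the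
conjugates of the central involution inside the Sylow subgroup commute. -/
theorem commute_of_isConj_z {G : Type*} [Group G] [Finite G] (hG : Group.IsSolvable G)
    (P : Sylow 2 G) {m : ℕ} {r : ℤ} {x y : G} (h : Tm P m r x y) (hm : 2 ≤ m) {s t : G}
    (hs : s ∈ (P : Subgroup G)) (ht : t ∈ (P : Subgroup G)) (hs' : IsConj (x ^ m) s)
    (ht' : IsConj (x ^ m) t) : s * t = t * s := by
  have hG' : IsPSolvable 2 G := PLocal.PSolv.of_isSolvable
  set N := pPrimeCore 2 G with hN
  set π := QuotientGroup.mk' N with hπ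
  set U := pCore 2 (G ⧸ N) with hU
  have hsurj : Function.Surjective π := QuotientGroup.mk'_surjective N
  have hC : BrPair.Cz U ≤ U := Cover.Cz_pCore_le_of_isPSolvable hG'
  have hUp : IsPGroup 2 U := PLocal.PSolv.isPGroup_pCore
  have hUP : U ≤ (P : Subgroup G).map π := by
    have := hUp.le_sylow_of_normal (P.mapSurjective hsurj)
    simpa using this
  have hz : π (x ^ m) ∈ BrPair.Cz U := by
    refine BrPair.mem_Cz.2 fun v hv => ?_
    obtain ⟨w, hw, rfl⟩ := hUP hv
    rw [← map_mul, ← map_mul, h.z_comm hw]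
  have hcj : ∀ u, IsConj (x ^ m) u → π u ∈ BrPair.Cz U := by
    intro u hu
    obtain ⟨c, rfl⟩ := isConj_iff.1 hu
    rw [map_mul, map_mul, map_inv]
    exact (inferInstance : (Subgroup.centralizer (U : Set (G ⧸ N))).Normal).conj_mem _ hz _
  have h1 : π (s * t * (t * s)⁻¹) = 1 := by
    rw [map_mul, map_inv, mul_inv_eq_one, map_mul, map_mul]
    exact BrPair.mem_Cz.1 (hcj t ht') _ (hC (hcj s hs'))
  have h2 : s * t * (t * s)⁻¹ ∈ (P : Subgroup G) ⊓ N :=
    Subgroup.mem_inf.2 ⟨mul_mem (mul_mem hs ht) (inv_mem (mul_mem ht hs)),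
      (QuotientGroup.eq_one_iff _).1 h1⟩
  rw [(PLocal.PSolv.disjoint_of_isPGroup_of_coprime P.isPGroup'
    PLocal.PSolv.coprime_card_pPrimeCore).eq_bot, Subgroup.mem_bot, mul_inv_eq_one] at h2
  exact h2

end CfsgLib.Tame
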